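import Cfsg.Agent.BH.Main

/-!
Helly families: the involutions of a point stabiliser commute.
-/

set_option autoImplicit false
set_option linter.style.haveILetI false

namespace Cfsg.Agent.SE.F
open MulAction Cfsg.Agent.H5.Invol Cfsg.Agent.H3.RelSyl N1
open Subgroup (centralizer normalizer zpowers)

universe u

section
variable {G Ω : Type*} [Group G] [MulAction G Ω]

theorem inverted_dvd [Finite G] {p : ℕ} (hp : p.Prime) {N Y : Subgroup G} {s : G} (hs : Inv s)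
    (hN : Odd (Nat.card N)) (hn : ∀ x ∈ N, s * x * s ∈ N) (hY : Y ≤ N)
    (hp' : IsPGroup p Y) (hn' : ∀ x ∈ Y, s * x * s ∈ Y) :
    ∃ e : ℕ, p ^ e ∣ (invertedBy N s).ncard ∧ (invertedBy Y s).ncard ≤ p ^ e := by
  haveI := Fact.mk hp
  obtain ⟨R, hR, hYR, hRs⟩ := exists_inv_syl hs hN hn hY hp' hn'
  obtain ⟨W, hW, -⟩ := exists_isSyl (K := N ⊓ centralizer {s}) (t := p) bot_le IsPGroup.of_bot
  obtain ⟨R', hR', hWR, hRs'⟩ := exists_inv_syl hs hN hn (hW.le.trans inf_le_left) hW.pg fun x hx => by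
    rwa [← mem_C.1 (hW.le hx).2, hs.mul_mul']
  obtain ⟨g, hg, e⟩ := Crit.syl_conj hR hR'.pg hR'.le
  have e' : cj g R' = R := Subgroup.eq_of_le_of_card_ge (by
    rintro _ ⟨x, hx, rfl⟩
    exact e x hx) (by rw [card_cj, Crit.syl_card hR, Crit.syl_card hR'])
  have hRn : s ∈ normalizer (R : Set G) := norm_of (by rwa [hs.inv_eq])
  have hRn' : s ∈ normalizer (R' : Set G) := norm_of (by rwa [hs.inv_eq])
  have hz : ∀ {X : Subgroup G}, (∀ x ∈ X, s * x * s ∈ X) → Nz (zpowers s) X := fun h =>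
    (Subgroup.zpowers_le).2 (norm_of (by rwa [hs.inv_eq]))
  obtain ⟨n, hnN, hc⟩ := exists_fixed_coset (A := zpowers s) (N := N ⊓ normalizer (R' : Set G)) (x := g)
    (sol_zpowers s) (by
      rw [Cop, Nat.card_zpowers, orderOf_eq_two hs.1 hs.2]
      exact Nat.coprime_two_left.2 (hN.of_dvd_nat (Subgroup.card_dvd_of_le inf_le_left)))
    (nz_inf (hz hn) (nz_of_le ((Subgroup.zpowers_le).2 hRn'))) fun a ha =>
      ⟨N.mul_mem (N.inv_mem hg) (nz_conj (hz hn) ha hg), norm_of_cj_eq (by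
        rw [← cj_cj, ← cj_cj, ← cj_cj, cj_eq_of_norm (Subgroup.inv_mem _ ((Subgroup.zpowers_le).2 hRn' ha)), e',
          cj_eq_of_norm ((Subgroup.zpowers_le).2 hRn ha), ← e', cj_cj, inv_mul_cancel, cj_one])⟩
  rw [cz_zpowers] at hc
  have h1 : Nat.card W ∣ Nat.card ↥(R ⊓ centralizer {s}) := by
    rw [← card_cj (g * n)]
    refine Subgroup.card_dvd_of_le ?_
    rintro _ ⟨x, hx, rfl⟩
    refine ⟨?_, Subgroup.mul_mem _ (Subgroup.mul_mem _ hc (hW.le hx).2) (Subgroup.inv_mem _ hc)⟩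
    have := e _ (norm_conj hnN.2 (hWR hx))
    simpa [mul_assoc] using this
  have h2 := card_factor hs hN hn
  have h3 := card_factor hs (hN.of_dvd_nat (Subgroup.card_dvd_of_le hR.le)) hRs
  obtain ⟨k, hk⟩ := hR.pg.exists_card_eq
  obtain ⟨j, -, he⟩ := (Nat.dvd_prime_pow hp).1 (hk ▸ Dvd.intro _ h3.symm)
  refine ⟨j, ?_, he ▸ Set.ncard_le_ncard (fun x hx => ⟨hYR hx.1, hx.2⟩)⟩
  have h4 : p ^ j * Nat.card W ∣ Nat.card N :=
    ((mul_dvd_mul_left _ h1).trans (dvd_of_eq (he ▸ h3.symm))).trans (Subgroup.card_dvd_of_le hR.le)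
  rw [h2, ← card_mul_relIndex hW.le, mul_comm (Nat.card W), ← mul_assoc] at h4
  exact (Nat.Coprime.pow_left j ((Nat.Prime.coprime_iff_not_dvd hp).2 hW.not_dvd)).dvd_of_dvd_mul_right
    (Nat.dvd_of_mul_dvd_mul_right Nat.card_pos h4)

/-- The counting argument. -/
theorem exists_prime [Finite G] [IsPretransitive G Ω] (h : Hyp G Ω) (hr : Rk2 (⊤ : Subgroup G))
    {a b : Ω} (hab : a ≠ b) (hq : Sq G a b) : ∃ r : ℕ, r.Prime ∧ r ∣ mm (⊤ : Subgroup G) a ∧
      ∀ (Y : Subgroup G) (s : G) (d : Ω), IsPGroup r Y → Odd (Nat.card Y) → Inv s → s • d = d →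
        d ∈ Fx Ω Y → s ∈ normalizer (Y : Set G) →
        (invertedBy Y s).ncard ≠ r ^ (mm (⊤ : Subgroup G) a).factorization r := by
  have : Nontrivial Ω := ⟨a, b, hab⟩
  obtain ⟨u, v, hu, hv, hua, hva, huv, hc⟩ := exists_comm h hr a
  let N : Subgroup G := Subgroup.closure
    {x | ∃ u v : G, Inv u ∧ Inv v ∧ u • a = a ∧ v • a = a ∧ x = u * v * (u * v)}
  have hND : N ≤ D2 G a b := by
    rw [Subgroup.closure_le]
    rintro _ ⟨u, v, hu, hv, h1, h2, rfl⟩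
    exact mem_D2.2 ⟨by simp only [mul_smul, h1, h2], hq u v hu hv h1 h2⟩
  have hNn : ∀ g : G, g • a = a → ∀ x ∈ N, g * x * g⁻¹ ∈ N := by
    intro g hg x hx
    have : N ≤ N.comap (MulAut.conj g).toMonoidHom := by
      rw [Subgroup.closure_le]
      rintro _ ⟨u, v, hu, hv, h1, h2, rfl⟩
      refine Subgroup.subset_closure ⟨_, _, hu.conj g, hv.conj g, hg ▸ conj_smul_fix h1,
        hg ▸ conj_smul_fix h2, ?_⟩
      simp [mul_assoc]
    exact this hx
  have hNo := h.odd_of_le hab hND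
  have hNu : ∀ x ∈ N, u * x * u ∈ N := fun x hx => by
    have := hNn u hua x hx
    rwa [hu.inv_eq] at this
  let V := D2 G a b ⊓ centralizer {u}
  have hV : Nz V N := nz_of fun g hg x hx => hNn g hg.1.1 x hx
  have h1 := card_sup_mul_card_inf hV
  have h2 : V ⊓ N = N ⊓ centralizer {u} := by
    ext x
    exact ⟨fun hx => ⟨hx.2, hx.1.2⟩, fun hx => ⟨⟨hND hx.1, hx.2⟩, hx.1⟩⟩
  have h3 := card_factor hu hNo hNu
  have h4 := h.card_D2_u_top hu hua hab
  have h5 : V ⊔ N ≤ D2 G a b := sup_le inf_le_left hND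
  have h6 := card_mul_relIndex h5
  have h7 : mm (⊤ : Subgroup G) a = (invertedBy N u).ncard * (V ⊔ N).relIndex (D2 G a b) := by
    rw [h2, h3, ← mul_assoc] at h1
    rw [Nat.eq_of_mul_eq_mul_right Nat.card_pos h1, h4, mul_assoc, mul_comm] at h6
    exact (Nat.eq_of_mul_eq_mul_right Nat.card_pos h6).symm
  have h8 : (V ⊔ N).relIndex (D2 G a b) ≠ 1 := by
    rw [Ne, Subgroup.relIndex_eq_one]
    intro hle
    obtain ⟨t, ht, rfl⟩ := h.swap_top hu hab
    obtain ⟨k, -, hk1, hk2, hk3⟩ := h.K_surj (X := ⊤) ht trivial hab.symm ⟨trivial, hu, hua⟩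
      ⟨trivial, hv, hva⟩
    have := hle (inv_mem (h.K_mem ht hk1 hk2))
    rw [sup_comm] at this
    obtain ⟨x, hx, c, hc', e⟩ := mem_sup_of_nz hV this
    have e2 : v * u = x * (u * x⁻¹ * u) := by
      rw [← hk3, ← inv_inv k, e, inv_inv, mul_assoc x c u, mem_C.1 hc'.2]
      group
    exact (hv.mul_of_comm hu huv.symm hc.symm).not_mem hNo
      (e2 ▸ mul_mem hx (hNu _ (inv_mem hx)))
  obtain ⟨r, hr, hrd⟩ := Nat.exists_prime_and_dvd h8
  refine ⟨r, hr, h7 ▸ hrd.mul_left _, fun Y s d hY hYo hs hsd hd hsY e => ?_⟩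
  obtain ⟨g, hg⟩ := inv_conj h hs hu
  have hgd : g • d = a := h.fix_eq hu (hg ▸ conj_smul_fix hsd) hua
  have hYu : ∀ x ∈ cj g Y, u * x * u ∈ cj g Y := fun x hx => by
    rw [mem_cj] at hx ⊢
    have := norm_conj hsY hx
    rw [hs.inv_eq] at this
    rw [← hg]
    simpa [mul_assoc] using this
  obtain ⟨k, hk1, hk2⟩ := inverted_dvd hr hu hNo hNu (Y := cj g Y ⊓ N) inf_le_right
    ((hY.map _).to_inf_left) (fun x hx => ⟨hYu x hx.1, hNu x hx.2⟩)
  have h9 : (invertedBy Y s).ncard ≤ (invertedBy (cj g Y ⊓ N) u).ncard := by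
    refine Set.ncard_le_ncard_of_injOn (fun y => g * y * g⁻¹) (fun y hy => ?_)
      (fun y _ z _ e => by simpa using e)
    rw [hs.mem_inv] at hy
    rw [hu.mem_inv]
    have e1 : u * (g * y * g⁻¹) * u = (g * y * g⁻¹)⁻¹ := by
      calc u * (g * y * g⁻¹) * u = g * (s * y * s) * g⁻¹ := by rw [← hg]; group
        _ = _ := by rw [hy.2]; group
    have hya : (g * y * g⁻¹) • a = a := hgd ▸ conj_smul_fix (hd y hy.1)
    have hm := conj_mem_cj (g := g) hy.1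
    refine ⟨⟨hm, ?_⟩, e1⟩
    generalize g * y * g⁻¹ = j at e1 hya hm
    have e2 : j * u * j⁻¹ * u = j * j := by
      rw [← e1, mul_assoc, mul_assoc, hu.mul_mul', hu.mul_mul]
    have e3 : j * j * (j * j) ∈ N := Subgroup.subset_closure ⟨_, _, hu.conj j, hu,
      hya ▸ conj_smul_fix hua, hua, by rw [e2]⟩
    have ho : Odd (Nat.card (cj g Y)) := by rwa [card_cj]
    rw [← sq_root_of_odd_card ho hm, ← sq_root_of_odd_card ho (mul_mem hm hm)]
    exact pow_mem (pow_mem e3 _) _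
  have h10 : r ^ (k + 1) ∣ mm (⊤ : Subgroup G) a := by
    rw [h7, pow_succ]
    exact mul_dvd_mul hk1 hrd
  have h11 := (hr.pow_dvd_iff_le_factorization (Hyp.mm_pos (h.mem_gam_top hu a)).ne').1 h10
  have h12 := (Nat.pow_le_pow_iff_right hr.one_lt).1 (e ▸ h9.trans hk2)
  omega

end

theorem Fam.elab {G Ω : Type u} [Group G] [Finite G] [MulAction G Ω] [IsPretransitive G Ω]
    [Nontrivial Ω] [FaithfulSMul G Ω] {L : Ω → Subgroup G} (F : Fam G L) (c : Ω) : ElAb G c := by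
  have h := F.toHyp
  obtain ⟨a, b, hab, hq⟩ := hi _ G Ω L (Nat.lt_succ_self _) F
  obtain ⟨r, hr, hrm, hno⟩ := exists_prime h F.rk2 hab hq
  obtain ⟨s, -, -, -, hs, -⟩ := F.rk2
  refine elab_of_sq (h.two_trans hr hs hrm ?_) hab hq c
  by_contra hn
  obtain ⟨Y, y1, ⟨d, d', -, y2, y3, -, y4, -⟩, y5, -, y6⟩ := h.exists_max hr hs hab hrm hn
  obtain ⟨s, s1, s2, s3⟩ := y5 ▸ y2
  exact hno Y s d y1 (h.odd_of_le y4 (le_D2.2 ⟨y2, y3⟩)) s2 s3 y2 s1 (y6 s s1 s2)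

end Cfsg.Agent.SE.F
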