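import Cfsg.Agent.SF.Red
import Cfsg.Agent.SE.NotP1A

/-!
Families of subgroups whose cosets have the Helly property: definitions, tools, reductions.
-/

set_option autoImplicit false
set_option linter.style.haveILetI false

namespace Cfsg.Agent.SE.F
open MulAction Cfsg.Agent.H5.Invol
open Subgroup (centralizer normalizer zpowers)

universe u

/-- Cosets that meet in pairs have a common element. -/
def Helly {G Ω : Type*} [Group G] (L : Ω → Subgroup G) : Prop :=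
  ∀ S : Set (Ω × G), (∀ p ∈ S, ∀ q ∈ S, ∃ w, p.2⁻¹ * w ∈ L p.1 ∧ q.2⁻¹ * w ∈ L q.1) →
    ∃ w, ∀ p ∈ S, p.2⁻¹ * w ∈ L p.1

/-- An equivariant family of subgroups of the point stabilisers with the Helly property. -/
structure Fam (G : Type*) {Ω : Type*} [Group G] [MulAction G Ω] (L : Ω → Subgroup G) : Prop
    extends Hyp G Ω where
  conj : ∀ (g : G) (x : Ω), ∀ y ∈ L x, g * y * g⁻¹ ∈ L (g • x)
  le : ∀ x, ∀ y ∈ L x, y • x = x
  inv : ∀ (s : G) (x : Ω), Inv s → s • x = x → s ∈ L x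
  helly : Helly L
  rk2 : Rk2 (⊤ : Subgroup G)

/-- The conclusion of the induction. -/
def SqE (G Ω : Type*) [Group G] [MulAction G Ω] : Prop := ∃ a b : Ω, a ≠ b ∧ N1.Sq G a b

/-- The induction hypothesis. -/
def HI (n : ℕ) : Prop :=
  ∀ (G Ω : Type u) [Group G] [Finite G] [MulAction G Ω] [IsPretransitive G Ω] [Nontrivial Ω]
    (L : Ω → Subgroup G), Nat.card G < n → Fam G L → SqE G Ω

/-- The intersection of the members of the family at the points of `P`. -/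
def LL {G Ω : Type*} [Group G] (L : Ω → Subgroup G) (P : Set Ω) : Subgroup G := ⨅ x ∈ P, L x

section
variable {G Ω : Type*} [Group G] {L : Ω → Subgroup G}

theorem mem_LL {P : Set Ω} {g : G} : g ∈ LL L P ↔ ∀ x ∈ P, g ∈ L x := by
  simp [LL, Subgroup.mem_iInf]

theorem Helly.rect (h : Helly L) {P R : Set Ω} {z : G}
    (hz : ∀ e ∈ P, ∀ d ∈ R, ∃ l ∈ L e, l⁻¹ * z ∈ L d) : ∃ w ∈ LL L P, w⁻¹ * z ∈ LL L R := by
  obtain ⟨w, hw⟩ := h ((P ×ˢ {1}) ∪ (R ×ˢ {z})) (by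
    rintro ⟨e, x⟩ (⟨he, hx⟩ | ⟨he, hx⟩) ⟨d, y⟩ (⟨hd, hy⟩ | ⟨hd, hy⟩) <;>
      simp only [Set.mem_singleton_iff] at hx hy <;> rw [hx, hy]
    · exact ⟨1, by simp, by simp⟩
    · obtain ⟨l, h1, h2⟩ := hz e he d hd
      exact ⟨l, by simpa using h1, by simpa using inv_mem h2⟩
    · obtain ⟨l, h1, h2⟩ := hz d hd e he
      exact ⟨l, by simpa using inv_mem h2, by simpa using h1⟩
    · exact ⟨z, by simp, by simp⟩)
  exact ⟨w, mem_LL.2 fun x hx => by simpa using hw (x, 1) (.inl ⟨hx, rfl⟩),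
    mem_LL.2 fun x hx => by simpa using inv_mem (hw (x, z) (.inr ⟨hx, rfl⟩))⟩

variable [MulAction G Ω]

theorem exists_comm [IsPretransitive G Ω] (h : Hyp G Ω) (hr : Rk2 (⊤ : Subgroup G)) (a : Ω) :
    ∃ u v : G, Inv u ∧ Inv v ∧ u • a = a ∧ v • a = a ∧ u ≠ v ∧ u * v = v * u := by
  obtain ⟨x, -, y, -, hx, hy, hne, hc⟩ := hr
  obtain ⟨c, hxc⟩ := h.exists_fix hx
  have hyc := h.fix_of_comm hx hxc hc.symm
  obtain ⟨g, rfl⟩ := exists_smul_eq G c a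
  refine ⟨_, _, hx.conj g, hy.conj g, conj_smul_fix hxc, conj_smul_fix hyc, by simpa using hne, ?_⟩
  calc g * x * g⁻¹ * (g * y * g⁻¹) = g * (x * y) * g⁻¹ := by group
    _ = _ := by rw [hc]; group

namespace Fam
variable (F : Fam G L)
include F

theorem conj_iff {g y : G} {x : Ω} : g * y * g⁻¹ ∈ L (g • x) ↔ y ∈ L x :=
  ⟨fun h => by simpa [mul_assoc] using F.conj g⁻¹ _ _ h, F.conj g x y⟩

theorem conj' {g y : G} {x : Ω} (h : y ∈ L (g • x)) : g⁻¹ * y * g ∈ L x := by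
  simpa using F.conj g⁻¹ _ _ h

theorem conj_fix {g y : G} {x : Ω} (hg : g • x = x) (h : y ∈ L x) : g * y * g⁻¹ ∈ L x := by
  have := F.conj g x y h
  rwa [hg] at this

/-- An element of `LL P` normalising another intersection. -/
theorem split {P : Set Ω} {B : Subgroup G} {R : Set Ω} (hB : B = LL L R) {z : G}
    (hz : z ∈ LL L P) (hn : z ∈ normalizer (B : Set G)) :
    ∃ w ∈ LL L P ⊓ B, w⁻¹ * z ∈ LL L {d | ∃ g ∈ B, ∃ e ∈ P, d = g • e} := by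
  obtain ⟨w, h1, h2⟩ := F.helly.rect (P := P ∪ R) (R := {d | ∃ g ∈ B, ∃ e ∈ P, d = g • e}) (z := z) (by
    rintro e (he | he) _ ⟨g, hg, d, hd, rfl⟩
    · exact ⟨z, mem_LL.1 hz e he, by simp⟩
    · refine ⟨z * g * z⁻¹ * g⁻¹, mem_LL.1 (hB ▸ mul_mem (norm_conj hn hg) (inv_mem hg)) e he, ?_⟩
      have := F.conj g d z (mem_LL.1 hz d hd)
      convert this using 1
      group)
  exact ⟨w, ⟨mem_LL.2 fun x hx => mem_LL.1 h1 x (.inl hx),
    hB ▸ mem_LL.2 fun x hx => mem_LL.1 h1 x (.inr hx)⟩, h2⟩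

variable [Finite G]

/-- `L a ⊓ L (t a)` fixes the fixed point of `t`. -/
theorem mid {t n : G} (ht : Inv t) {a δ : Ω} (hδ : t • δ = δ) (ha : a ≠ δ) (h1 : n ∈ L a)
    (h2 : n ∈ L (t • a)) : n • δ = δ := by
  have hta := F.toHyp.smul_ne ht hδ ha
  have hle : L a ⊓ L (t • a) ≤ D2 G a (t • a) := fun x hx => ⟨F.le _ _ hx.1, F.le _ _ hx.2⟩
  obtain ⟨y, k, -, h3, h4, rfl⟩ := exists_factor (X := L a ⊓ L (t • a)) ht.2
    (F.toHyp.odd_of_le hta.symm hle) (fun x hx => ⟨by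
      have := F.conj t _ _ hx.2
      rwa [ht.smul_smul] at this, F.conj t _ _ hx.1⟩) ⟨h1, h2⟩
  rw [mul_smul]
  suffices k • δ = δ by rw [this, F.toHyp.fix_of_comm ht hδ h3]
  by_contra hk
  have hi : ∀ i : ℤ, t * k ^ i = (k ^ i)⁻¹ * t := fun i => by
    rw [← (inverted_zpow h4 i).2]; group
  obtain ⟨w, h5, h6⟩ := F.helly.rect (P := {a, δ}) (R := {d | ∃ i : ℤ, d = k ^ i • δ}) (z := t) (by
    rintro e (rfl | rfl) _ ⟨i, rfl⟩
    · have hk1 : k ∈ L e := h4.1.1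
      refine ⟨(k ^ i * k ^ i)⁻¹, inv_mem (mul_mem (zpow_mem hk1 i) (zpow_mem hk1 i)), ?_⟩
      have := F.conj (k ^ i) δ t (F.inv t δ ht hδ)
      rwa [mul_assoc, ← zpow_neg, hi, zpow_neg, inv_inv, ← mul_assoc, ← inv_inv (k ^ i * k ^ i)] at this
    · exact ⟨t, F.inv t _ ht hδ, by simp⟩)
  set M := LL L {d | ∃ i : ℤ, d = k ^ i • δ}
  have hM : Odd (Nat.card M) := F.toHyp.odd_of_le (a := δ) (b := k • δ) (Ne.symm hk) fun x hx =>
    ⟨F.le _ _ (mem_LL.1 hx _ ⟨0, by simp⟩), F.le _ _ (mem_LL.1 hx _ ⟨1, by simp⟩)⟩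
  have hMt : ∀ x ∈ M, t * x * t⁻¹ ∈ M := fun x hx => mem_LL.2 (by
    rintro _ ⟨i, rfl⟩
    have := F.conj t _ _ (mem_LL.1 hx _ ⟨-i, rfl⟩)
    rwa [← mul_smul, hi, mul_smul, hδ, zpow_neg, inv_inv] at this)
  have hw : w ∈ D2 G a δ := ⟨F.le _ _ (mem_LL.1 h5 a (.inl rfl)), F.le _ _ (mem_LL.1 h5 δ (.inr rfl))⟩
  obtain ⟨j, hj⟩ := F.toHyp.odd_D2 ha
  have h7 := pow_card_eq_one_of_mem hw
  have h8 : w * w ∈ M := by
    have := mul_mem (hMt _ (inv_mem h6)) (inv_mem h6)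
    convert this using 1
    rw [mul_inv_rev, inv_inv, ht.inv_eq, ht.mul_mul, mul_assoc, ht.mul_mul]
  have h9 : w ∈ M := by
    rw [hj, pow_succ, pow_mul, sq] at h7
    rw [eq_inv_of_mul_eq_one_right h7]
    exact inv_mem (pow_mem h8 j)
  exact ht.not_mem hM (by simpa using mul_mem h9 h6)

variable [IsPretransitive G Ω]

/-- The two-point stabiliser moves the fixed point of `t`. -/
theorem move {t : G} (ht : Inv t) {a δ : Ω} (hδ : t • δ = δ) (ha : a ≠ δ) :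
    ∃ d : G, d • a = a ∧ d • t • a = t • a ∧ d • δ ≠ δ := by
  by_contra! hn
  have h := F.toHyp
  have hta := h.smul_ne ht hδ ha
  have e : D2 G a (t • a) = D2 G a δ := Subgroup.eq_of_le_of_card_ge
    (fun x hx => ⟨hx.1, hn x hx.1 hx.2⟩) (h.dt1 ht hδ ha).ge
  obtain ⟨s, hs, rfl⟩ := h.swap_top ht ha.symm
  have key : ∀ u, Inv u → u • δ = δ → u * t ∈ D2 G (s • δ) (t • s • δ) := fun u hu hud => by
    obtain ⟨k, -, h1, h2, rfl⟩ := h.K_surj (X := ⊤) hs trivial ha ⟨trivial, ht, hδ⟩ ⟨trivial, hu, hud⟩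
    have h3 : k ∈ D2 G (s • δ) (t • s • δ) := by rw [e, D2_comm]; exact h.K_mem hs h1 h2
    have := mul_mem (inv_mem h3) (conj_D2 ht h3)
    simpa only [mul_assoc] using this
  obtain ⟨u, v, hu, hv, h1, h2, h3, h4⟩ := exists_comm h F.rk2 δ
  have := mul_mem (key u hu h1) (inv_mem (key v hv h2))
  rw [mul_inv_rev, ht.inv_eq, hv.inv_eq, mul_assoc, ht.mul_mul] at this
  exact (hu.mul_of_comm hv h3 h4).not_mem (h.odd_D2 hta.symm) this

omit F [Finite G] [IsPretransitive G Ω] in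
theorem invol_mem (h : Hyp G Ω) [Finite G] {X : Subgroup G} {c d : Ω} {s : G} (hs : s ∈ II X c)
    (hcd : c ≠ d) [IsPretransitive G Ω] (hD : D2 G c d ≤ X) {v : G} (hv : Inv v) (hvc : v • c = c) :
    v ∈ X := by
  obtain ⟨t, ht, rfl⟩ := h.swap_top hv hcd
  obtain ⟨k, -, h1, h2, rfl⟩ := h.K_surj (X := ⊤) ht trivial hcd.symm ⟨trivial, hs.2⟩ ⟨trivial, hv, hvc⟩
  have h3 := hD (h.K_mem ht h1 h2)
  exact mul_mem (mul_mem (inv_mem h3) hs.1) h3

end Fam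
end

/-- Reduction to a proper subgroup. -/
theorem Fam.sub {G Ω : Type u} [Group G] [Finite G] [MulAction G Ω] [IsPretransitive G Ω]
    {L : Ω → Subgroup G} (F : Fam G L) (ih : HI.{u} (Nat.card G)) {X : Subgroup G} (hX : X ≠ ⊤)
    {c c' : Ω} (hI : ∀ s : G, Inv s → s • c = c → s ∈ X) (hc' : c' ∈ Gam Ω X) (hcc : c ≠ c')
    (hD : ∀ k ∈ Gam Ω X, ∀ k' ∈ Gam Ω X, k ≠ k' → L k ⊓ L k' ≤ X) : SqE G Ω := by
  have h := F.toHyp
  obtain ⟨u, v, hu, hv, h1, h2, h3, h4⟩ := exists_comm h F.rk2 c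
  have hc : c ∈ Gam Ω X := ⟨u, hI u hu h1, hu, h1⟩
  have iv : ∀ {s : X}, Inv s → Inv (s : G) := fun hs =>
    ⟨fun e => hs.1 (Subtype.ext e), congrArg Subtype.val hs.2⟩
  have iv' : ∀ {s : G} (hs : s ∈ X), Inv s → Inv (⟨s, hs⟩ : X) := fun _ hs =>
    ⟨fun e => hs.1 (congrArg Subtype.val e), Subtype.ext hs.2⟩
  haveI : IsPretransitive X (GamS Ω X) := ⟨fun x y => by
    obtain ⟨g, hg, e⟩ := h.gam_trans x.2 y.2
    exact ⟨⟨g, hg⟩, Subtype.ext e⟩⟩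
  haveI : Nontrivial (GamS Ω X) := ⟨⟨⟨c, hc⟩, ⟨c', hc'⟩, fun e => hcc (congrArg Subtype.val e)⟩⟩
  obtain ⟨a, b, hab, hq⟩ := ih X (GamS Ω X) (fun x => (L x).subgroupOf X) (by
    have := red_card_lt (lt_top_iff_ne_top.2 hX)
    rwa [Subgroup.card_top] at this) ⟨⟨fun s hs => by
      obtain ⟨a, ha⟩ := h.exists_fix (iv hs)
      exact ⟨⟨a, s, s.2, iv hs, ha⟩, Subtype.ext ha,
        fun b hb => Subtype.ext (h.fix_eq (iv hs) (congrArg Subtype.val hb) ha)⟩⟩,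
      fun g x y hy => F.conj g x y hy, fun x y hy => Subtype.ext (F.le x y hy),
      fun s x hs hx => F.inv s x (iv hs) (congrArg Subtype.val hx), fun S hS => by
        by_cases h0 : ∃ p ∈ S, ∃ q ∈ S, p.1 ≠ q.1
        · obtain ⟨w, hw⟩ := F.helly ((fun p => ((p.1 : Ω), (p.2 : G))) '' S) (by
            rintro _ ⟨p, hp, rfl⟩ _ ⟨q, hq, rfl⟩
            obtain ⟨w, h5, h6⟩ := hS p hp q hq
            exact ⟨w, h5, h6⟩)
          obtain ⟨p, hp, q, hq, hpq⟩ := h0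
          obtain ⟨w', h5, h6⟩ := hS p hp q hq
          have h7 : (w' : G)⁻¹ * w ∈ X := hD _ p.1.2 _ q.1.2 (fun e => hpq (Subtype.ext e)) ⟨by
            have := mul_mem (inv_mem (show (p.2 : G)⁻¹ * w' ∈ L p.1 from h5)) (hw _ ⟨p, hp, rfl⟩)
            simpa [mul_assoc] using this, by
            have := mul_mem (inv_mem (show (q.2 : G)⁻¹ * w' ∈ L q.1 from h6)) (hw _ ⟨q, hq, rfl⟩)
            simpa [mul_assoc] using this⟩
          exact ⟨⟨w, by simpa using mul_mem w'.2 h7⟩, fun p hp => hw _ ⟨p, hp, rfl⟩⟩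
        push Not at h0
        rcases S.eq_empty_or_nonempty with rfl | ⟨p, hp⟩
        · exact ⟨1, fun _ h => h.elim⟩
        refine ⟨p.2, fun q hq => ?_⟩
        obtain ⟨w, h5, h6⟩ := hS p hp q hq
        rw [h0 p hp q hq] at h5
        simpa [mul_assoc] using mul_mem h6 (inv_mem h5),
      rk2_top.2 ⟨u, hI u hu h1, v, hI v hv h2, hu, hv, h3, h4⟩⟩
  obtain ⟨g, hg, e⟩ := h.gam_trans hc a.2
  have hI' : ∀ s : G, Inv s → s • (a : Ω) = a → s ∈ X := fun s hs hsa => by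
    have := hI _ (hs.conj' g) (by rw [mul_smul, mul_smul, e, hsa, ← e, inv_smul_smul])
    simpa [mul_assoc] using mul_mem (mul_mem hg this) (inv_mem hg)
  exact ⟨a, b, fun e => hab (Subtype.ext e), fun s s' hs hs' h5 h6 => congrArg Subtype.val
    (hq ⟨s, hI' s hs h5⟩ ⟨s', hI' s' hs' h6⟩ (iv' _ hs) (iv' _ hs') (Subtype.ext h5) (Subtype.ext h6))⟩

/-- Reduction to a proper quotient. -/
theorem Fam.quot {G Ω : Type u} [Group G] [Finite G] [MulAction G Ω] [IsPretransitive G Ω]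
    [Nontrivial Ω] {L : Ω → Subgroup G} (F : Fam G L) (ih : HI.{u} (Nat.card G))
    (h0 : LL L Set.univ ≠ ⊥) : SqE G Ω := by
  have h := F.toHyp
  set P := LL L Set.univ with hP
  have mP : ∀ {x : G}, x ∈ P ↔ ∀ a, x ∈ L a := by simp [hP, mem_LL]
  haveI hN : P.Normal := ⟨fun x hx g => mP.2 fun a => by
    have := F.conj g _ _ (mP.1 hx (g⁻¹ • a))
    rwa [smul_inv_smul] at this⟩
  have hodd : Odd (Nat.card P) := by
    obtain ⟨a, b, hab⟩ := exists_pair_ne Ω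
    exact h.odd_of_le hab fun x hx => ⟨F.le _ _ (mP.1 hx a), F.le _ _ (mP.1 hx b)⟩
  letI : MulAction (G ⧸ P) Ω := MulAction.compHom Ω (QuotientGroup.lift P (toPermHom G Ω)
    fun x hx => Equiv.ext fun a => F.le a x (mP.1 hx a))
  have sm : ∀ (g : G) (a : Ω), (g : G ⧸ P) • a = g • a := fun _ _ => rfl
  have iv : ∀ {s : G}, Inv s → Inv (s : G ⧸ P) := fun hs =>
    ⟨fun e => hs.not_mem hodd ((QuotientGroup.eq_one_iff _).1 e), by
      rw [← QuotientGroup.mk_mul, hs.2, QuotientGroup.mk_one]⟩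
  have lift : ∀ {s : G ⧸ P}, Inv s → ∃ x : G, Inv x ∧ (x : G ⧸ P) = s := fun {s} hs => by
    obtain ⟨x, rfl⟩ := QuotientGroup.mk_surjective s
    have h1 : x * x ∈ P := (QuotientGroup.eq_one_iff _).1 hs.2
    have h2 := pow_card_eq_one_of_mem h1
    obtain ⟨j, hj⟩ := hodd
    have h3 : ((x ^ (2 * j + 1) : G) : G ⧸ P) = x := by
      rw [QuotientGroup.mk_pow, pow_succ, pow_mul, sq, hs.2, one_pow, one_mul]
    refine ⟨x ^ (2 * j + 1), ⟨fun e => hs.1 (by rw [← h3, e, QuotientGroup.mk_one]), ?_⟩, h3⟩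
    rw [hj] at h2
    rw [← h2, ← pow_add, ← sq, ← pow_mul]; congr 1; ring
  have mL : ∀ (a : Ω) (g : G), (g : G ⧸ P) ∈ (L a).map (QuotientGroup.mk' P) ↔ g ∈ L a := fun a g =>
    ⟨fun ⟨y, hy, e⟩ => by simpa using mul_mem hy (mP.1 (QuotientGroup.eq.1 e) a), fun hg => ⟨g, hg, rfl⟩⟩
  haveI : IsPretransitive (G ⧸ P) Ω := ⟨fun x y => by
    obtain ⟨g, e⟩ := exists_smul_eq G x y
    exact ⟨g, e⟩⟩
  obtain ⟨a, b, hab, hq⟩ := ih (G ⧸ P) Ω (fun x => (L x).map (QuotientGroup.mk' P)) (by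
    rw [Subgroup.card_eq_card_quotient_mul_card_subgroup P]
    exact lt_mul_of_one_lt_right Nat.card_pos ((Subgroup.one_lt_card_iff_ne_bot P).2 h0)) ⟨⟨fun s hs => by
      obtain ⟨x, hx, rfl⟩ := lift hs
      exact h.fix x hx⟩, by
      rintro ⟨g⟩ x _ ⟨y, hy, rfl⟩
      exact ⟨_, F.conj g x y hy, rfl⟩, by
      rintro x _ ⟨y, hy, rfl⟩
      exact F.le x y hy, fun s x hs hx => by
      obtain ⟨y, hy, rfl⟩ := lift hs
      exact ⟨y, F.inv y x hy hx, rfl⟩, fun S hS => by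
      obtain ⟨w, hw⟩ := F.helly ((fun p => (p.1, (p.2 : G ⧸ P))) ⁻¹' S) fun p hp q hq => by
        obtain ⟨⟨w⟩, h5, h6⟩ := hS _ hp _ hq
        exact ⟨w, (mL _ _).1 h5, (mL _ _).1 h6⟩
      refine ⟨w, ?_⟩
      rintro ⟨x, ⟨g⟩⟩ hp
      exact (mL _ _).2 (hw (x, g) hp), by
      obtain ⟨x, -, y, -, h1, h3, h4, h5⟩ := F.rk2
      refine ⟨x, trivial, y, trivial, iv h1, iv h3, fun e => ?_, by
        rw [← QuotientGroup.mk_mul, h5, QuotientGroup.mk_mul]⟩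
      have := QuotientGroup.eq.1 e
      rw [h1.inv_eq] at this
      exact (h1.mul_of_comm h3 h4 h5).not_mem hodd this⟩
  exact ⟨a, b, hab, fun s s' hs hs' h5 h6 => hq s s' (iv hs) (iv hs') h5 h6⟩

end Cfsg.Agent.SE.F
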