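import Cfsg.Agent.BH.Types

/-!
Helly families: the induction.
-/

set_option autoImplicit false
set_option linter.style.haveILetI false

namespace Cfsg.Agent.SE.F
open MulAction Cfsg.Agent.H5.Invol
open Subgroup (centralizer normalizer zpowers)
open scoped Pointwise

universe u

section
variable {G Ω : Type*} [Group G] [MulAction G Ω]

/-- The points fixed by all `A y` that fix `u` and `v`. -/
def KK (A : Ω → Subgroup G) (u v : Ω) : Set Ω :=
  {k | ∀ y, u ∈ Fx Ω (A y) → v ∈ Fx Ω (A y) → k ∈ Fx Ω (A y)}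

/-- A good pair of points. -/
def GP (A : Ω → Subgroup G) (u v : Ω) : Prop := u ≠ v ∧ v ∈ Fx Ω (A u) ∧
  ∃ (t : G) (δ : Ω), Inv t ∧ t • u = v ∧ t • δ = δ ∧ δ ∈ Fx Ω (A u)

variable {L A : Ω → Subgroup G}

theorem KK_sub {u v k k' : Ω} (h : k ∈ KK A u v) (h' : k' ∈ KK A u v) : KK A k k' ⊆ KK A u v :=
  fun _ hz y h1 h2 => hz y (h y h1 h2) (h' y h1 h2)

theorem KK_comm (u v : Ω) : KK A u v = KK A v u :=
  Set.ext fun _ => ⟨fun h y h1 h2 => h y h2 h1, fun h y h1 h2 => h y h2 h1⟩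

namespace Ty
variable (T : Ty L A) (F : Fam G L)
include T

theorem smul {x y : Ω} (h : y ∈ Fx Ω (A x)) (g : G) : g • y ∈ Fx Ω (A (g • x)) := fun z hz => by
  have := h _ (by simpa using T.conj g⁻¹ _ z hz)
  rwa [mul_smul, mul_smul, inv_smul_eq_iff] at this

theorem le_L {x y : Ω} (h : y ∈ Fx Ω (A x)) (hxy : x ≠ y) : A x ≤ L y :=
  fun z hz => T.far x y hxy z hz (h z hz)

theorem KK_smul {u v k : Ω} (h : k ∈ KK A u v) (g : G) : g • k ∈ KK A (g • u) (g • v) :=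
  fun y h1 h2 => by
    simpa using T.smul (h (g⁻¹ • y) (by simpa using T.smul h1 g⁻¹) (by simpa using T.smul h2 g⁻¹)) g

theorem mem_stab [Finite Ω] {u v : Ω} {g : G} (h : KK A (g • u) (g • v) = KK A u v) :
    g ∈ stabilizer G (KK A u v) :=
  Set.eq_of_subset_of_ncard_le (by
    rintro _ ⟨k, hk, rfl⟩
    exact h ▸ T.KK_smul hk g) (Set.ncard_smul_set _ _).ge

include F

theorem symm {x y : Ω} (h : y ∈ Fx Ω (A x)) : x ∈ Fx Ω (A y) := by
  by_cases e : x = y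
  · exact e ▸ T.fix x
  · exact fun z hz => F.le _ _ (T.sym x y (T.le_L h e) hz)

theorem clique {u v k k' : Ω} (huv : v ∈ Fx Ω (A u)) (h : k ∈ KK A u v) (h' : k' ∈ KK A u v) :
    k' ∈ Fx Ω (A k) :=
  h' k (T.symm F (h u (T.fix u) huv)) (T.symm F (h v (T.symm F huv) (T.fix v)))

variable [Finite G]

theorem mid_mem {s : G} (hs : Inv s) {c x : Ω} (hc : s • c = c) (hx : x ≠ c) (h : c ∈ Fx Ω (A x)) :
    c ∈ KK A x (s • x) := fun y h1 h2 => by
  by_cases e : y = x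
  · exact e ▸ h
  by_cases e' : y = s • x
  · have := T.smul h s
    rwa [hc, ← e'] at this
  exact fun z hz => F.mid hs hc hx (T.le_L h1 e hz) (T.le_L h2 e' hz)

theorem next {s d : G} (hs : Inv s) {c x : Ω} (hc : s • c = c) (hx : x ≠ c) (h : c ∈ Fx Ω (A x))
    (d1 : d • x = x) (d2 : d • s • x = s • x) (d3 : d • c ≠ c) : GP A c (d • c) := by
  have hH := F.toHyp
  have hsx := hH.smul_ne hs hc hx
  have h1 := T.le_L (T.symm F h) hx.symm
  have h2 : A c ≤ L (s • x) := fun z hz => by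
    have := F.conj s _ _ (h1 (show s⁻¹ * z * s⁻¹⁻¹ ∈ A c by
      have := T.conj s⁻¹ _ z hz
      rwa [inv_smul_eq_iff.2 hc.symm] at this))
    simpa [mul_assoc] using this
  have key : ∀ (t : G) (e : Ω), Inv t → t • x = s • x → t • e = e → e ∈ Fx Ω (A c) :=
    fun t e ht h3 h4 z hz => F.mid ht h4 (fun e' => hsx (by rw [← h3, e', h4])) (h1 hz) (h3 ▸ h2 hz)
  have h3 : (d * s * d⁻¹) • x = s • x := by
    rw [mul_smul, mul_smul, inv_smul_eq_iff.2 d1.symm, d2]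
  have h4 : ∀ t : G, Inv t → t • x = s • x → t ∈ stabilizer G ({x, s • x} : Set Ω) := fun t ht e => by
    rw [mem_stabilizer_iff, Set.smul_set_insert, Set.smul_set_singleton, e, ht.smul_eq e, Set.pair_comm]
  obtain ⟨t, h5, ht, -, h6⟩ := hH.exists_swap hs (hs.conj d) (h4 s hs rfl) (h4 _ (hs.conj d) h3) hc
    (conj_smul_fix hc) d3.symm
  obtain ⟨e, he⟩ := hH.exists_fix ht
  refine ⟨d3.symm, key _ _ (hs.conj d) h3 (conj_smul_fix hc), t, e, ht, h6, he, key t e ht ?_ he⟩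
  have h7 : ∀ y ∈ ({x, s • x} : Set Ω), t • y ∈ ({x, s • x} : Set Ω) := fun y hy =>
    mem_stabilizer_iff.1 h5 ▸ Set.smul_mem_smul_set hy
  rcases h7 x (.inl rfl) with h8 | h8
  · rcases h7 _ (.inr rfl) with h9 | h9
    · exact absurd (smul_left_cancel t (h9.trans h8.symm)) hsx
    · exact absurd (hH.fix_eq ht h9 h8) hsx
  · exact h8

omit [Finite G] in
/-- If all pairs of points are joined, the family can be enlarged. -/
theorem fam (hall : ∀ x y, y ∈ Fx Ω (A x)) : Fam G (fun x => L x ⊔ A x) := by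
  have dec : ∀ {x : Ω} {g : G}, g ∈ L x ⊔ A x → ∃ l ∈ L x, ∃ a ∈ A x, g = l * a := fun {x g} =>
    mem_sup_of_nz (nz_of fun a ha y hy => F.conj_fix (T.fix x a ha) hy)
  refine ⟨F.toHyp, fun g x y hy => ?_, fun x y hy => ?_,
    fun s x h1 h2 => Subgroup.mem_sup_left (F.inv s x h1 h2), fun S hS => ?_, F.rk2⟩
  · obtain ⟨l, hl, a, ha, rfl⟩ := dec hy
    simpa [mul_assoc] using Subgroup.mul_mem_sup (F.conj g x l hl) (T.conj g x a ha)
  · obtain ⟨l, hl, a, ha, rfl⟩ := dec hy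
    rw [mul_smul, T.fix x a ha, F.le x l hl]
  have : ∀ x : Ω, ∃ g : G, (∃ g', (x, g') ∈ S) → (x, g) ∈ S := fun x => by
    by_cases h : ∃ g', (x, g') ∈ S
    · exact ⟨h.choose, fun _ => h.choose_spec⟩
    · exact ⟨1, fun h' => (h h').elim⟩
  choose γ hγ using this
  obtain ⟨w, hw⟩ := F.helly {p ∈ S | p.2 = γ p.1} (by
    rintro ⟨x, g⟩ ⟨hp, e⟩ ⟨y, g'⟩ ⟨hq, e'⟩
    by_cases hxy : x = y
    · subst hxy
      exact ⟨g, by simp, by simp [show g = g' from e.trans e'.symm]⟩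
    obtain ⟨w, h1, h2⟩ := hS _ hp _ hq
    obtain ⟨l, hl, a, ha, h3⟩ := dec h1
    obtain ⟨l', hl', a', ha', h4⟩ := dec h2
    refine ⟨w * a'⁻¹ * a⁻¹, ?_, ?_⟩
    · have := mul_mem hl (F.conj_fix (T.fix x a ha) (inv_mem (T.le_L (hall y x) (Ne.symm hxy) ha')))
      rwa [← mul_assoc, ← mul_assoc, ← h3, mul_assoc _ w, mul_assoc _ (w * _)] at this
    · have := mul_mem hl' (inv_mem (T.le_L (hall x y) hxy ha))
      rwa [eq_mul_inv_of_mul_eq h4.symm, mul_assoc _ w, mul_assoc _ (w * _)] at this)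
  refine ⟨w, fun p hp => ?_⟩
  have h1 := hγ p.1 ⟨p.2, hp⟩
  obtain ⟨w', h2, h3⟩ := hS p hp _ h1
  simpa [mul_assoc] using mul_mem (mul_mem h2 (inv_mem h3))
    (Subgroup.mem_sup_left (hw (p.1, γ p.1) ⟨h1, rfl⟩))

end Ty
end

theorem Ty.sqE {G Ω : Type u} [Group G] [Finite G] [MulAction G Ω] [IsPretransitive G Ω]
    [Nontrivial Ω] {L A : Ω → Subgroup G} (T : Ty L A) (F : Fam G L) (ih : HI.{u} (Nat.card G)) :
    SqE G Ω := by
  have h := F.toHyp
  obtain ⟨c₀⟩ : Nonempty Ω := inferInstance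
  haveI : Finite Ω := Finite.of_surjective (fun g : G => g • c₀) (exists_smul_eq G c₀)
  obtain ⟨⟨u, v⟩, ⟨huv, h1, s, δ, hs, h2, hδ, h3⟩, hmin⟩ := Set.exists_min_image
    {p : Ω × Ω | GP A p.1 p.2} (fun p => (KK A p.1 p.2).ncard) (Set.toFinite _) (by
      obtain ⟨c, hc⟩ := T.ex c₀
      have h1 : c₀ ≠ c := fun e => T.nle c₀ (by rwa [← e] at hc)
      obtain ⟨s, -, hs, -, h2, -⟩ := exists_comm h F.rk2 c
      obtain ⟨d, d1, d2, d3⟩ := F.move hs h2 h1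
      exact ⟨(c, d • c), T.next F hs h2 h1 (fun z hz => F.le _ _ (hc hz)) d1 d2 d3⟩)
  dsimp only at huv h1 h2 h3
  subst h2
  have hu : u ≠ δ := fun e => huv (by rw [e, hδ])
  have key : ∀ k ∈ KK A u (s • u), ∀ k' ∈ KK A u (s • u), GP A k k' →
      D2 G k k' ≤ stabilizer G (KK A u (s • u)) := fun k hk k' hk' e g hg => by
    rw [← Set.eq_of_subset_of_ncard_le (KK_sub hk hk') (hmin (k, k') e)]
    exact T.mem_stab (by rw [hg.1, hg.2])
  obtain ⟨d, d1, d2, d3⟩ := F.move hs hδ hu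
  have h4 := T.mid_mem F hs hδ hu h3
  have hd : d ∈ stabilizer G (KK A u (s • u)) := T.mem_stab (by rw [d1, d2])
  have hsX : s ∈ stabilizer G (KK A u (s • u)) := T.mem_stab (by rw [hs.smul_smul, KK_comm])
  have hG : Gam Ω (stabilizer G (KK A u (s • u))) ⊆ KK A u (s • u) := fun k hk => by
    obtain ⟨g, hg, rfl⟩ := h.gam_trans ⟨s, hsX, hs, hδ⟩ hk
    exact mem_stabilizer_iff.1 hg ▸ Set.smul_mem_smul_set h4
  have h5 := Gam.smul hd ⟨s, hsX, hs, hδ⟩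
  by_cases hX : stabilizer G (KK A u (s • u)) = ⊤
  · have hall : ∀ x y, y ∈ Fx Ω (A x) := fun x y =>
      T.clique F h1 (hG (hX ▸ h.mem_gam_top hs x)) (hG (hX ▸ h.mem_gam_top hs y))
    refine (T.fam F hall).quot ih fun e => T.nle u fun z hz => ?_
    rw [Subgroup.mem_bot.1 (e ▸ mem_LL.2 fun x _ => by
      by_cases e' : u = x
      · exact Subgroup.mem_sup_right (e' ▸ hz)
      · exact Subgroup.mem_sup_left (T.le_L (hall u x) e' hz) : z ∈ (⊥ : Subgroup G))]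
    exact one_mem _
  refine F.sub ih hX (fun t ht htd => Fam.invol_mem h ⟨hsX, hs, hδ⟩ d3.symm
    (key _ h4 _ (hG h5) (T.next F hs hδ hu h3 d1 d2 d3)) ht htd) h5 d3.symm
    fun k hk k' hk' e g hg => ?_
  obtain ⟨t, t1, t2, t3⟩ := h.gam_swap hk hk' e
  obtain ⟨m, hm⟩ := h.exists_fix t2
  exact key k (hG hk) k' (hG hk') ⟨e, T.clique F h1 (hG hk) (hG hk'), t, m, t2, t3, hm,
    T.clique F h1 (hG hk) (hG ⟨t, t1, t2, hm⟩)⟩ ⟨F.le _ _ hg.1, F.le _ _ hg.2⟩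

theorem hi (n : ℕ) : HI.{u} n := by
  induction n with
  | zero => exact fun G Ω _ _ _ _ _ _ e => absurd e (Nat.not_lt_zero _)
  | succ n ih =>
  intro G Ω _ _ _ _ _ L hlt F
  have ih' : HI.{u} (Nat.card G) := fun G' Ω' _ _ _ _ _ L' e => ih G' Ω' L' (by omega)
  by_contra hn
  refine hn (F.noTypes ih' fun x c g h1 h2 => ?_)
  by_contra h3
  obtain ⟨A, T⟩ := F.exists_ty ih' hn ⟨g, h1, h2, h3⟩
  exact hn (T.sqE F ih')

end Cfsg.Agent.SE.F
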