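import Cfsg.Agent.BH.Defs

/-!
Helly families: the case where `L x ⊓ G_c ≤ L c` for all points.
-/

set_option autoImplicit false
set_option linter.style.haveILetI false

namespace Cfsg.Agent.SE.F
open MulAction Cfsg.Agent.H5.Invol Cfsg.Agent.H3.RelSyl
open Subgroup (centralizer normalizer zpowers)

universe u

variable {G Ω : Type u} [Group G] [Finite G] [MulAction G Ω] [IsPretransitive G Ω] [Nontrivial Ω]
  {L : Ω → Subgroup G}

theorem Fam.elab_of_ti (F : Fam G L) (hT : ∀ x c, x ≠ c → ∀ g ∈ L x, g • c = c → g = 1) (a : Ω) :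
    ElAb G a := by
  have h := F.toHyp
  haveI : Finite Ω := Finite.of_surjective (fun g : G => g • a) (exists_smul_eq G a)
  have hZ : ∀ p, Good G Ω p := fun p s j c b hs hsc hcb hjc hjb hi _ => by
    have h2 : j * s * j⁻¹ * s = j * j := by
      rw [← hi, mul_assoc, mul_assoc, hs.mul_mul', hs.mul_mul]
    have h1 := F.inv s c hs hsc
    exact eq_one_of_odd_card (h.odd_D2 hcb) ⟨hjc, hjb⟩ (hT c b hcb _
      (h2 ▸ mul_mem (F.conj_fix hjc h1) h1) (by rw [mul_smul, hjb, hjb]))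
  intro u v hu hv hua hva
  obtain ⟨b, hb⟩ := exists_ne a
  suffices L a ≤ L a ⊓ centralizer {u} from (mem_C.1 (this (F.inv v a hv hva)).2).symm
  rw [← Subgroup.relIndex_eq_one]
  by_contra hne
  obtain ⟨r, hr, hd⟩ := Nat.exists_prime_and_dvd hne
  haveI := Fact.mk hr
  obtain ⟨R, hR, -⟩ := exists_isSyl (K := L a) (t := r) bot_le IsPGroup.of_bot
  by_cases hm : r ∣ mm (⊤ : Subgroup G) a
  · have hr2 : r ≠ 2 := by
      rintro rfl
      exact (h.odd_mm hu hb.symm).not_two_dvd_nat hm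
    obtain ⟨x, hx, y, hy, hxy⟩ := Crit.two_pts hr hr2 (h.two_of_good hr hu (hZ r) hb.symm hm) hR.pg
    obtain ⟨c, hc, hca⟩ : ∃ c ∈ Fx Ω R, a ≠ c := by
      by_cases e : a = x
      · exact ⟨y, hy, e ▸ hxy⟩
      · exact ⟨x, hx, e⟩
    have : R = ⊥ := eq_bot_iff.2 fun g hg => hT a c hca g (hR.le hg) (hc g hg)
    exact hR.not_dvd (hd.trans (Subgroup.relIndex_dvd_of_le_left _ (this ▸ bot_le)))
  have h1 := @H4.Basic.ncard_modEq_fixed G G _ (MulAction.compHom G (MulAut.conj (G := G))) _ hr R hR.pg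
    (II (⊤ : Subgroup G) a) (Set.toFinite _)
    fun g hg s hs => ⟨trivial, hs.2.1.conj g, by
      have := conj_smul_fix (g := g) hs.2.2
      rwa [F.le _ _ (hR.le hg)] at this⟩
  obtain ⟨s, hs, hsR⟩ := Set.nonempty_of_ncard_ne_zero fun e => hm
    (Nat.modEq_zero_iff_dvd.1 (e ▸ h1))
  obtain ⟨t, ht, rfl⟩ := h.swap_top hu hb.symm
  obtain ⟨k, -, h2, -, h3⟩ := h.K_surj (X := ⊤) ht trivial hb ⟨trivial, hu, hua⟩ hs
  have h4 : IsSyl r (L a) (cj k R) := hR.conj k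
    (fun x => by have := F.conj_iff (g := k) (y := x) (x := a); rw [h2] at this; exact this.symm)
    fun x => by simp [mem_cj, mul_assoc]
  refine h4.not_dvd (hd.trans (Subgroup.relIndex_dvd_of_le_left _ fun x hx => ⟨h4.le hx, mem_C.2 ?_⟩))
  have h5 : k⁻¹ * x * k * s * (k⁻¹ * x * k)⁻¹ = s := hsR _ (mem_cj.1 hx)
  rw [← h3] at h5
  calc x * u = k * (k⁻¹ * x * k * (k⁻¹ * u * k) * (k⁻¹ * x * k)⁻¹) * k⁻¹ * x := by group
    _ = _ := by rw [h5]; group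

theorem Fam.noTypes (F : Fam G L) (ih : HI.{u} (Nat.card G))
    (hT : ∀ x c, ∀ g ∈ L x, g • c = c → g ∈ L c) : SqE G Ω := by
  have h := F.toHyp
  obtain ⟨a₀, b₀, h0⟩ := exists_pair_ne Ω
  haveI : Finite Ω := Finite.of_surjective (fun g : G => g • a₀) (exists_smul_eq G a₀)
  obtain ⟨⟨a, b⟩, hab, hmax⟩ := Set.exists_max_image {p : Ω × Ω | p.1 ≠ p.2}
    (fun p => Nat.card ↥(L p.1 ⊓ L p.2)) (Set.toFinite _) ⟨(a₀, b₀), h0⟩
  obtain ⟨s₀, -, -, -, hs₀, -⟩ := F.rk2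
  obtain ⟨t, ht, rfl⟩ := h.swap_top hs₀ (show a ≠ b from hab)
  have hab' : a ≠ t • a := hab
  have key : ∀ k k', k ≠ k' → L a ⊓ L (t • a) ≤ L k → L a ⊓ L (t • a) ≤ L k' →
      L a ⊓ L (t • a) = L k ⊓ L k' := fun k k' h1 h2 h3 =>
    Subgroup.eq_of_le_of_card_ge (le_inf h2 h3) (hmax (k, k') h1)
  obtain ⟨δ, hδ⟩ := h.exists_fix ht
  have ha : a ≠ δ := fun e => hab' (by rw [e, hδ])
  have h1 : L a ⊓ L (t • a) ≤ L δ := fun n hn => hT a δ n hn.1 (F.mid ht hδ ha hn.1 hn.2)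
  have hn : ∀ x y, D2 G x y ≤ normalizer ((L x ⊓ L y : Subgroup G) : Set G) := fun x y =>
    nz_of fun g hg n hn => ⟨F.conj_fix hg.1 hn.1, F.conj_fix hg.2 hn.2⟩
  set N := L a ⊓ L (t • a) with hN
  have htN : t ∈ normalizer (N : Set G) := Subgroup.mem_normalizer_fintype fun x hx => ⟨by
    have := F.conj t _ _ hx.2
    rwa [ht.smul_smul] at this, F.conj t _ _ hx.1⟩
  have hG : ∀ k ∈ Gam Ω (normalizer (N : Set G)), N ≤ L k := fun k hk n hn => by
    obtain ⟨g, hg, rfl⟩ := h.gam_trans ⟨t, htN, ht, hδ⟩ hk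
    simpa [mul_assoc] using F.conj g _ _ (h1 (norm_conj' hg hn))
  by_cases hX : normalizer (N : Set G) = ⊤
  swap
  · obtain ⟨d, d1, d2, d3⟩ := F.move ht hδ ha
    exact F.sub ih hX (c := δ) (c' := d • δ) (fun s hs hsd => Fam.invol_mem h ⟨htN, ht, hδ⟩ ha.symm
      (by rw [key δ a ha.symm h1 inf_le_left]; exact hn _ _) hs hsd)
      (Gam.smul (hn _ _ ⟨d1, d2⟩) ⟨t, htN, ht, hδ⟩) d3.symm fun k hk k' hk' e =>
        key k k' e (hG k hk) (hG k' hk') ▸ Subgroup.le_normalizer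
  by_cases hN0 : N = ⊥
  · have := F.elab_of_ti (fun x c hxc g hg hgc => by
      have h2 := hmax (x, c) hxc
      simp only [← hN, hN0, Subgroup.card_bot, Subgroup.card_le_one_iff_eq_bot] at h2
      exact Subgroup.mem_bot.1 (h2 ▸ (⟨hg, hT x c g hg hgc⟩ : g ∈ L x ⊓ L c))) a
    refine ⟨a, t • a, hab', fun u v hu hv h2 h3 => ?_⟩
    nth_rw 1 [this u v hu hv h2 h3]
    rw [mul_assoc, hu.mul_mul, hv.2, one_smul]
  · exact F.quot ih fun e => hN0 (eq_bot_iff.2 fun n hn => e ▸ mem_LL.2 fun k _ =>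
      hG k (hX ▸ h.mem_gam_top ht k) hn)

end Cfsg.Agent.SE.F
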