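import Cfsg.Agent.BH.Comm
import Cfsg.Agent.H9.Binary
import Cfsg.Agent.H5.BS.Main

/-!
Binary actions of simple groups with one class of involutions.
-/

set_option autoImplicit false
set_option linter.style.haveILetI false

namespace Cfsg.Agent.SE.F
open MulAction Cfsg.Agent.H5.Invol Cfsg.Agent.H5.RankOne Cfsg.Agent.H9
open scoped Pointwise

universe u

/-- The theorem for groups in which the involutions of a point stabiliser commute. -/
def CE : Prop := ∀ (G Ω : Type u) [Group G] [Finite G] [MulAction G Ω] [FaithfulSMul G Ω]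
  [IsPretransitive G Ω] [Nontrivial Ω], Hyp G Ω → (∀ a : Ω, ElAb G a) → Rk2 (⊤ : Subgroup G) → Concl G Ω

/-- The fixed point sets of the involutions. -/
def Sg (G Ω : Type*) [Group G] [MulAction G Ω] : SubMulAction G (Set Ω) where
  carrier := {Λ | ∃ s : G, Inv s ∧ Λ = fixedBy Ω s}
  smul_mem' := by
    rintro g _ ⟨s, hs, rfl⟩
    exact ⟨_, hs.conj g, smul_fixedBy Ω s g⟩

section
variable {G Ω : Type*} [Group G] [Finite G] [MulAction G Ω] [Finite Ω] (hb : Bin G Ω)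
  (hone : ∀ s t : G, s ≠ 1 → s * s = 1 → t ≠ 1 → t * t = 1 → ∃ c, c * s * c⁻¹ = t)
include hone

omit [Finite G] in
theorem fix_eq_of_le {s t : G} (hs : Inv s) (ht : Inv t) (h : fixedBy Ω s ⊆ fixedBy Ω t) :
    fixedBy Ω s = fixedBy Ω t := by
  obtain ⟨c, rfl⟩ := hone s t hs.1 hs.2 ht.1 ht.2
  exact Set.eq_of_subset_of_ncard_le h (ncard_fixedBy_conj c s).le

include hb

theorem fix_eq_of_smul {s t : G} (hs : Inv s) (ht : Inv t) (h : t • fixedBy Ω s = fixedBy Ω s) :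
    fixedBy Ω s = fixedBy Ω t := by
  refine fix_eq_of_le hone hs ht fun x hx => ?_
  rcases Nat.even_or_odd (orderOf (s * t)) with e | e
  · obtain ⟨z, z1, z2, h1, h2⟩ := exists_central_involution hs.2 ht.2 e
    exact hb.fix hone ht.1 ht.2 z1 z2 h2.symm (hb.fix hone z1 z2 hs.1 hs.2 h1 hx)
  · have h1 : s * t * (s * t) ∈ stabilizer G x := by
      have h2 : s • t • x = t • x := (h ▸ Set.smul_mem_smul_set hx : t • x ∈ fixedBy Ω s)
      rw [mem_stabilizer_iff, mul_smul, mul_smul, mul_smul, h2, ht.smul_smul]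
      exact hx
    have h2 := pow_mem h1 ((orderOf (s * t) + 1) / 2)
    rw [eq_sq_pow_of_odd e (pow_orderOf_eq_one _)] at h2
    simpa using mul_mem (inv_mem (show s ∈ stabilizer G x from hx)) h2

theorem fam_of_bin (h2 : Rk2 (⊤ : Subgroup G)) :
    Fam G (fun Λ : Sg G Ω => fixingSubgroup G (Λ : Set Ω)) where
  fix t ht := ⟨⟨_, t, ht, rfl⟩, Subtype.ext (by
      change t • fixedBy Ω t = fixedBy Ω t
      rw [smul_fixedBy, mul_inv_cancel_right]), by
    rintro ⟨_, s, hs, rfl⟩ e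
    exact Subtype.ext (fix_eq_of_smul hb hone hs ht (congrArg Subtype.val e))⟩
  conj g Λ y hy := (mem_fixingSubgroup_iff G).2 (by
    rintro _ ⟨x, hx, rfl⟩
    exact conj_smul_fix ((mem_fixingSubgroup_iff G).1 hy x hx))
  le Λ y hy := Subtype.ext (Set.eq_of_subset_of_ncard_le (by
    rintro _ ⟨x, hx, rfl⟩
    change y • x ∈ (Λ : Set Ω)
    rwa [(mem_fixingSubgroup_iff G).1 hy x hx]) (Set.ncard_smul_set _ _).ge)
  inv := by
    rintro t ⟨_, s, hs, rfl⟩ ht e
    exact (mem_fixingSubgroup_iff G).2 (fix_eq_of_smul hb hone hs ht (congrArg Subtype.val e)).le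
  helly S hS := by
    obtain ⟨w, hw⟩ := hb.family (ι := {q : (Sg G Ω × G) × Ω // q.1 ∈ S ∧ q.2 ∈ (q.1.1 : Set Ω)})
      (fun q => q.1.2) (fun q => q.1.1.2 • q.1.2) fun p q => by
        obtain ⟨w, h3, h4⟩ := hS _ p.2.1 _ q.2.1
        have h5 := (mem_fixingSubgroup_iff G).1 h3 _ p.2.2
        have h6 := (mem_fixingSubgroup_iff G).1 h4 _ q.2.2
        rw [mul_smul, inv_smul_eq_iff] at h5 h6
        exact ⟨w, h5, h6⟩
    exact ⟨w, fun p hp => (mem_fixingSubgroup_iff G).2 fun x hx => by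
      rw [mul_smul, inv_smul_eq_iff]
      exact hw ⟨(p, x), hp, hx⟩⟩
  rk2 := h2

end

theorem type_of_bin (ce : CE.{u}) {G : Type u} [Group G] [Finite G] [IsSimpleGroup G]
    (hone : ∀ s t : G, s ≠ 1 → s * s = 1 → t ≠ 1 → t * t = 1 → ∃ c, c * s * c⁻¹ = t)
    {H : Subgroup G} (hH : H ≠ ⊤) (he : Even (Nat.card H)) (hb : Bin G (G ⧸ H)) :
    (∃ (F : Type) (_ : Field F) (_ : Fintype F), (∃ n : ℕ, 2 ≤ n ∧ Fintype.card F = 2 ^ n) ∧
        Nonempty (G ≃* Matrix.ProjectiveSpecialLinearGroup (Fin 2) F)) ∨ Lie.IsoSuzuki G ∨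
      (∃ (F : Type) (_ : Field F) (_ : Fintype F) (n : ℕ), 2 ≤ n ∧ Fintype.card F = (2 ^ n) ^ 2 ∧
        Nonempty (G ≃* PSU 3 F (2 ^ n))) := by
  obtain ⟨s, hsH, hs⟩ := exists_involution_of_even he
  have hG : ¬ IsMulCommutative G := fun h => by
    rcases (Subgroup.normal_of_isMulCommutative H).eq_bot_or_eq_top with e | e
    · exact hs.1 (Subgroup.mem_bot.1 (e ▸ hsH))
    · exact hH e
  obtain ⟨x, y, h2⟩ := H5.BS.exists_commuting hG (he.two_dvd.trans (Subgroup.card_subgroup_dvd_card H))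
  have F := fam_of_bin hb hone
    ⟨x, trivial, y, trivial, ⟨h2.1, h2.2.2.2.1⟩, ⟨h2.2.1, h2.2.2.2.2.1⟩, h2.2.2.1, h2.2.2.2.2.2⟩
  haveI : IsPretransitive G (Sg G (G ⧸ H)) := ⟨by
    rintro ⟨_, u, hu, rfl⟩ ⟨_, v, hv, rfl⟩
    obtain ⟨c, rfl⟩ := hone u v hu.1 hu.2 hv.1 hv.2
    exact ⟨c, Subtype.ext (smul_fixedBy _ u c)⟩⟩
  haveI : Nontrivial (Sg G (G ⧸ H)) := by
    by_contra hn
    rw [not_nontrivial_iff_subsingleton] at hn
    have h3 : H.normalCore = ⊥ := (H.normalCore_normal.eq_bot_or_eq_top).resolve_right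
      fun e => hH (top_le_iff.1 (e ▸ H.normalCore_le))
    refine hs.1 (Subgroup.mem_bot.1 (h3 ▸ fun g => ?_))
    have h4 : fixedBy (G ⧸ H) s = fixedBy (G ⧸ H) (g * s * g⁻¹) := congrArg Subtype.val
      (Subsingleton.elim (⟨_, s, hs, rfl⟩ : Sg G (G ⧸ H)) ⟨_, _, Inv.conj hs g, rfl⟩)
    have h5 : ((1 : G) : G ⧸ H) ∈ fixedBy (G ⧸ H) s := mem_stabilizer_coe.2 (by simpa using hsH)
    simpa using mem_stabilizer_coe.1 (h4 ▸ h5 : ((1 : G) : G ⧸ H) ∈ fixedBy (G ⧸ H) (g * s * g⁻¹))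
  haveI : FaithfulSMul G (Sg G (G ⧸ H)) := ⟨fun {x y} e => by
    rcases (MulAction.toPermHom G (Sg G (G ⧸ H))).normal_ker.eq_bot_or_eq_top with h | h
    · exact (MonoidHom.ker_eq_bot_iff _).1 h (Equiv.ext e)
    · obtain ⟨b, c, hbc⟩ := exists_pair_ne (Sg G (G ⧸ H))
      obtain ⟨g, rfl⟩ := exists_smul_eq G b c
      have : MulAction.toPermHom G (Sg G (G ⧸ H)) g = 1 := MonoidHom.mem_ker.1 (h ▸ Subgroup.mem_top g)
      exact absurd (Equiv.congr_fun this b).symm hbc⟩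
  obtain ⟨a, t, Q, hS⟩ := ce G _ F.toHyp F.elab F.rk2
  exact Rk1.classify hS ((Rk1.two_lt_iff hS).2 ⟨x, y, h2⟩)
    ((Rk1.G0_normal hS).eq_bot_or_eq_top.resolve_left fun e =>
      hS.ne_one (Subgroup.mem_bot.1 (e ▸ Rk1.t_mem_G0)))

section
variable {G G' : Type*} [Group G] [Group G'] (e : G ≃* G') (H : Subgroup G)

theorem bin_map (hb : Bin G (G ⧸ H)) : Bin G' (G' ⧸ H.map e.toMonoidHom) := fun n I J hn h => by
  have key : ∀ (g x y : G'), g • (x : G' ⧸ H.map e.toMonoidHom) = y ↔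
      e.symm g • ((e.symm x : G) : G ⧸ H) = (e.symm y : G) := fun g x y => by
    rw [Quotient.smul_mk, Quotient.smul_mk, smul_eq_mul, smul_eq_mul, QuotientGroup.eq, QuotientGroup.eq,
      Subgroup.mem_map_equiv]
    simp
  choose I' hI using fun i => QuotientGroup.mk_surjective (I i)
  choose J' hJ using fun i => QuotientGroup.mk_surjective (J i)
  obtain ⟨g, hg⟩ := hb n (fun i => (e.symm (I' i) : G)) (fun i => (e.symm (J' i) : G)) hn fun i j hij => by
    obtain ⟨g, h1, h2⟩ := h i j hij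
    rw [← hI, ← hJ] at h1 h2
    exact ⟨_, (key _ _ _).1 h1, (key _ _ _).1 h2⟩
  exact ⟨e g, fun i => by rw [← hI, ← hJ, key, e.symm_apply_apply]; exact hg i⟩

theorem map_map_symm : (H.map e.toMonoidHom).map e.symm.toMonoidHom = H := by
  ext x; simp [Subgroup.mem_map_equiv]

theorem bin_map_iff : Bin G' (G' ⧸ H.map e.toMonoidHom) ↔ Bin G (G ⧸ H) :=
  ⟨fun h => by have := bin_map e.symm _ h; rwa [map_map_symm] at this, bin_map e H⟩

theorem syl_map {p : ℕ} (P : Sylow p G) : ∃ P' : Sylow p G', (P' : Subgroup G') = P.1.map e.toMonoidHom :=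
  ⟨⟨_, P.isPGroup'.map _, fun {R} hR hle => by
    have := P.is_maximal' (hR.map e.symm.toMonoidHom) (by
      simpa only [map_map_symm] using Subgroup.map_mono (f := e.symm.toMonoidHom) hle)
    rw [← this]
    exact (map_map_symm e.symm R).symm⟩, rfl⟩

theorem syl_iff {p : ℕ} : (∃ P : Sylow p G', H.map e.toMonoidHom = P) ↔ ∃ P : Sylow p G, H = P :=
  ⟨fun ⟨P, h⟩ => (syl_map e.symm P).imp fun P' h' => by rw [h', ← h, map_map_symm],
    fun ⟨P, h⟩ => (syl_map e P).imp fun P' h' => by rw [h', h]⟩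

theorem mem_cen {R : Subgroup G} {x : G} :
    x ∈ (Subgroup.center R).map R.subtype ↔ x ∈ R ∧ ∀ y ∈ R, y * x = x * y :=
  ⟨by
    rintro ⟨z, hz, rfl⟩
    exact ⟨z.2, fun y hy => congrArg Subtype.val (Subgroup.mem_center_iff.1 hz ⟨y, hy⟩)⟩,
  fun h => ⟨⟨x, h.1⟩, Subgroup.mem_center_iff.2 fun y => Subtype.ext (h.2 y y.2), rfl⟩⟩

theorem cen_map (P : Subgroup G) : ((Subgroup.center P).map P.subtype).map e.toMonoidHom =
    (Subgroup.center (P.map e.toMonoidHom)).map (P.map e.toMonoidHom).subtype := by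
  ext x
  rw [Subgroup.mem_map_equiv, mem_cen, mem_cen, Subgroup.mem_map_equiv]
  refine and_congr_right fun _ => ⟨?_, fun h y hy => e.injective ?_⟩
  · rintro h _ ⟨y, hy, rfl⟩
    simpa using congrArg e (h y hy)
  · simpa using h _ ⟨y, hy, rfl⟩

theorem cen_iff {p : ℕ} : (∃ P : Sylow p G', H.map e.toMonoidHom =
      (Subgroup.center (P : Subgroup G')).map (P : Subgroup G').subtype) ↔
    ∃ P : Sylow p G, H = (Subgroup.center (P : Subgroup G)).map (P : Subgroup G).subtype :=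
  ⟨fun ⟨P, h⟩ => (syl_map e.symm P).imp fun P' h' => by rw [h', ← cen_map, ← h, map_map_symm],
    fun ⟨P, h⟩ => (syl_map e P).imp fun P' h' => by rw [h', ← cen_map, h]⟩

theorem map_ne_top (h : H ≠ ⊤) : H.map e.toMonoidHom ≠ ⊤ := fun h' => h (by
  rw [← map_map_symm e H, h']
  exact Subgroup.map_top_of_surjective _ e.symm.surjective)

theorem card_map : Nat.card (H.map e.toMonoidHom) = Nat.card H :=
  Subgroup.card_map_of_injective e.injective

end

end Cfsg.Agent.SE.F
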