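import Cfsg.Agent.BH.NoTypes

/-!
Helly families: minimal intersections with a bad point.
-/

set_option autoImplicit false
set_option linter.style.haveILetI false

namespace Cfsg.Agent.SE.F
open MulAction Cfsg.Agent.H5.Invol
open Subgroup (centralizer normalizer zpowers)
open scoped Pointwise

universe u

section
variable {G Ω : Type*} [Group G] [MulAction G Ω]

/-- `c` is a bad point of `A`. -/
def Bad (L : Ω → Subgroup G) (A : Subgroup G) (c : Ω) : Prop := ∃ z ∈ A, z • c = c ∧ z ∉ L c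

/-- `A` is an intersection of least order having a bad point, and `c` is such a point. -/
structure Mn (L : Ω → Subgroup G) (A : Subgroup G) (c : Ω) : Prop where
  cl : ∃ P : Set Ω, P.Nonempty ∧ A = LL L P
  bad : Bad L A c
  min : ∀ (P : Set Ω) (d : Ω), P.Nonempty → Bad L (LL L P) d → Nat.card A ≤ Nat.card (LL L P)

/-- The properties of the family of minimal intersections. -/
structure Ty (L A : Ω → Subgroup G) : Prop where
  conj : ∀ (g : G) (x : Ω), ∀ y ∈ A x, g * y * g⁻¹ ∈ A (g • x)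
  nle : ∀ x, ¬ A x ≤ L x
  fix : ∀ x, x ∈ Fx Ω (A x)
  far : ∀ x y, x ≠ y → ∀ z ∈ A x, z • y = y → z ∈ L y
  sym : ∀ x y, A x ≤ L y → A y ≤ L x
  ex : ∀ x, ∃ y, A x ≤ L y

variable {L : Ω → Subgroup G} {A : Subgroup G} {c : Ω}

theorem Mn.conj (F : Fam G L) (h : Mn L A c) (g : G) : Mn L (cj g A) (g • c) where
  cl := by
    obtain ⟨P, h1, rfl⟩ := h.cl
    refine ⟨g • P, h1.smul_set, Subgroup.ext fun y => ?_⟩
    rw [mem_cj, mem_LL, mem_LL]
    exact ⟨by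
      rintro h2 _ ⟨x, hx, rfl⟩
      simpa [mul_assoc] using F.conj g _ _ (h2 x hx), fun h2 x hx => F.conj' (h2 _ ⟨x, hx, rfl⟩)⟩
  bad := by
    obtain ⟨z, h1, h2, h3⟩ := h.bad
    exact ⟨_, conj_mem_cj h1, conj_smul_fix h2, fun e => h3 (F.conj_iff.1 e)⟩
  min P d h1 h2 := by rw [card_cj]; exact h.min P d h1 h2

theorem Mn.nle (h : Mn L A c) : ¬ A ≤ L c := fun e => by
  obtain ⟨z, h1, -, h3⟩ := h.bad
  exact h3 (e h1)

variable [Finite G]

theorem Mn.norm (F : Fam G L) (h : Mn L A c) {R : Set Ω} {z : G} (h1 : z ∈ A) (h2 : z • c = c)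
    (h3 : z ∉ L c) (h4 : z ∈ normalizer (LL L R : Set G)) (h5 : A ⊓ LL L R ≤ L c) :
    LL L R ≤ normalizer (A : Set G) := by
  obtain ⟨P, ⟨x, hx⟩, rfl⟩ := h.cl
  obtain ⟨w, h6, h7⟩ := F.split rfl h1 h4
  have h8 : LL L {d | ∃ g ∈ LL L R, ∃ e ∈ P, d = g • e} = LL L P := Subgroup.eq_of_le_of_card_ge
    (fun y hy => mem_LL.2 fun e he => mem_LL.1 hy e ⟨1, one_mem _, e, he, (one_smul _ _).symm⟩)
    (h.min _ c ⟨x, 1, one_mem _, x, hx, (one_smul _ _).symm⟩ ⟨_, h7, by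
      rw [mul_smul, h2, inv_smul_eq_iff, F.le _ _ (h5 h6)], fun e => h3 (by
        simpa using mul_mem (h5 h6) e)⟩)
  refine nz_of fun g hg y hy => mem_LL.2 fun e he => ?_
  rw [← h8] at hy
  simpa using F.conj' (mem_LL.1 hy _ ⟨g⁻¹, inv_mem hg, e, he, rfl⟩)

theorem Mn.norm_L (F : Fam G L) (h : Mn L A c) : L c ≤ normalizer (A : Set G) := by
  obtain ⟨z, h1, h2, h3⟩ := h.bad
  have e : LL L {c} = L c := Subgroup.ext fun y => by simp [mem_LL]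
  rw [← e]
  exact h.norm F h1 h2 h3 (by rw [e]; exact norm_of fun y hy => F.conj_fix h2 hy)
    (by rw [e]; exact inf_le_right)

theorem Mn.fix [IsPretransitive G Ω] (F : Fam G L) (h : Mn L A c) : c ∈ Fx Ω A := by
  obtain ⟨u, v, hu, hv, h1, h2, h3, h4⟩ := exists_comm F.toHyp F.rk2 c
  have h5 := F.inv u c hu h1
  obtain ⟨P, ⟨x, hx⟩, e⟩ := h.cl
  have h6 : A ≤ L x := fun y hy => mem_LL.1 (e ▸ hy) x hx
  have h7 : x ∈ Fx Ω A := fun y hy => F.le _ _ (h6 hy)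
  exact F.toHyp.dt3 ⟨u, h5, v, F.inv v c hv h2, hu, hv, h3, h4⟩ (F.toHyp.odd_of_le
    (F.toHyp.smul_ne hu h1 (b := x) fun e => h.nle (e ▸ h6))
    (le_D2.2 ⟨Fx.smul (h.norm_L F h5) h7, h7⟩)) (h.norm_L F) ⟨u, h5, hu, h1⟩

end

variable {G Ω : Type u} [Group G] [Finite G] [MulAction G Ω] [IsPretransitive G Ω]
  {L : Ω → Subgroup G}

theorem Mn.uniq (F : Fam G L) (ih : HI.{u} (Nat.card G)) (hn : ¬ SqE G Ω) {A : Subgroup G} {c d : Ω}
    (h : Mn L A c) (hd : Bad L A d) : c = d := by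
  by_contra hcd
  have h' : Mn L A d := ⟨h.cl, hd, h.min⟩
  obtain ⟨u, -, hu, -, h1, -⟩ := exists_comm F.toHyp F.rk2 c
  obtain ⟨v, -, hv, -, h2, -⟩ := exists_comm F.toHyp F.rk2 d
  refine hn (F.sub ih (X := normalizer (A : Set G)) (fun e => ?_)
    (fun s hs hsc => h.norm_L F (F.inv s c hs hsc)) ⟨v, h'.norm_L F (F.inv v d hv h2), hv, h2⟩ hcd
    fun k hk _ _ _ y hy => ?_)
  · obtain ⟨P, ⟨x, hx⟩, e'⟩ := h.cl
    obtain ⟨g, rfl⟩ := exists_smul_eq G c x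
    exact h.nle fun y hy => F.conj_iff.1 (mem_LL.1 (e' ▸ norm_conj (e ▸ Subgroup.mem_top g) hy) _ hx)
  · obtain ⟨g, hg, rfl⟩ := F.toHyp.gam_trans ⟨u, h.norm_L F (F.inv u c hu h1), hu, h1⟩ hk
    simpa [mul_assoc] using mul_mem (mul_mem hg (h.norm_L F (F.conj' hy.1))) (inv_mem hg)

theorem Mn.sym (F : Fam G L) (ih : HI.{u} (Nat.card G)) (hn : ¬ SqE G Ω) {A B : Subgroup G} {c x : Ω}
    (h : Mn L A c) (h' : Mn L B x) (hx : A ≤ L x) : B ≤ L c := by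
  obtain ⟨z, h1, h2, h3⟩ := h.bad
  obtain ⟨R, hR, e⟩ := h'.cl
  obtain ⟨P, hP, e'⟩ := h.cl
  have h4 : A ⊓ B = LL L (P ∪ R) := Subgroup.ext fun y => by
    simp only [e, e', Subgroup.mem_inf, mem_LL, Set.mem_union, or_imp, forall_and]
  have h5 : B ≤ normalizer (A : Set G) := e ▸ h.norm F h1 h2 h3 (e ▸ h'.norm_L F (hx h1)) fun y hy => by
    by_contra h6
    rw [← e] at hy
    have h7 : A ⊓ B = A := Subgroup.eq_of_le_of_card_ge inf_le_left
      (h4 ▸ h.min _ c hP.inl ⟨y, h4 ▸ hy, h.fix F y hy.1, h6⟩)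
    have h8 : A = B := Subgroup.eq_of_le_of_card_ge (inf_eq_left.1 h7)
      (e' ▸ h'.min P c hP (e' ▸ h.bad))
    exact h'.nle (h8 ▸ hx)
  intro y hy
  by_contra h6
  have h7 : c = y • c := h.uniq F ih hn (by
    have := (h.conj F y).bad
    rwa [cj_eq_of_norm (h5 hy)] at this)
  exact h.nle (h'.uniq F ih hn ⟨y, hy, h7.symm, h6⟩ ▸ hx)

theorem Fam.exists_ty (F : Fam G L) (ih : HI.{u} (Nat.card G)) (hn : ¬ SqE G Ω) {x₀ c₀ : Ω}
    (h0 : Bad L (L x₀) c₀) : ∃ A, Ty L A := by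
  haveI : Finite Ω := Finite.of_surjective (fun g : G => g • x₀) (exists_smul_eq G x₀)
  obtain ⟨⟨P, c⟩, h1, h2⟩ := Set.exists_min_image {p : Set Ω × Ω | p.1.Nonempty ∧ Bad L (LL L p.1) p.2}
    (fun p => Nat.card (LL L p.1)) (Set.toFinite _) ⟨({x₀}, c₀), Set.singleton_nonempty _, by
      rwa [show LL L {x₀} = L x₀ from Subgroup.ext fun y => by simp [mem_LL]]⟩
  have h3 : Mn L (LL L P) c := ⟨⟨P, h1.1, rfl⟩, h1.2, fun R d h4 h5 => h2 (R, d) ⟨h4, h5⟩⟩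
  have h4 : ∀ x, ∃ A, Mn L A x := fun x => by
    obtain ⟨g, rfl⟩ := exists_smul_eq G c x
    exact ⟨_, h3.conj F g⟩
  choose A hA using h4
  have h5 : ∀ {B : Subgroup G} {x : Ω}, Mn L B x → A x ≤ B := fun {B x} h => by
    obtain ⟨R, -, e⟩ := h.cl
    exact fun y hy => e ▸ mem_LL.2 fun d hd => (hA d).sym F ih hn (hA x)
      (h.sym F ih hn (hA d) fun z hz => mem_LL.1 (e ▸ hz) d hd) hy
  refine ⟨A, fun g x y hy => ?_, fun x => (hA x).nle, fun x => (hA x).fix F, fun x y hxy z h6 h7 => ?_,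
    fun x y => (hA x).sym F ih hn (hA y), fun x => ?_⟩
  · have := (hA (g • x)).conj F g⁻¹
    rw [inv_smul_smul] at this
    simpa using mem_cj.1 (h5 this hy)
  · by_contra h8
    exact hxy ((hA x).uniq F ih hn ⟨z, h6, h7, h8⟩)
  · obtain ⟨R, ⟨y, hy⟩, e⟩ := (hA x).cl
    exact ⟨y, fun z hz => mem_LL.1 (e ▸ hz) y hy⟩

end Cfsg.Agent.SE.F
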